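import Cfsg.Agent.H69.G2Three.TorusValue
import Cfsg.Agent.H69.G2Three.Fusion
import Cfsg.Agent.H69.ChevUnipotent

/-!
# The prime graph of `G₂(3)`
-/

set_option autoImplicit false

namespace Cfsg.Agent.H69.G2Three

open Cfsg Cfsg.Lie Cfsg.Agent.H46
open scoped Matrix

local instance : Fact (Nat.Prime 3) := ⟨by norm_num⟩

set_option maxRecDepth 20000

set_option quotPrecheck false in
local notation "G₂₃" => ↥(chevG2.group (ZMod 3))

theorem card_borel_three : ¬ 7 ∣ Nat.card (chevG2.borelSubgroup (ZMod 3)) ∧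
    ¬ 13 ∣ Nat.card (chevG2.borelSubgroup (ZMod 3)) := by
  classical
  have hU : Nat.card (chevG2.posUnipotent (ZMod 3)) = 3 ^ 6 := by
    rw [Cfsg.Agent.H69.Chev.card_posUnipotent goodG2, ZMod.card,
      show chevG2.nroots / 2 = 6 by decide +kernel]
  have hT : Nat.card (chevG2.diagonalSubgroup (ZMod 3)) ≤ 4 := by
    have hsur : Function.Surjective (fun z : Fin chevG2.rank → (ZMod 3)ˣ =>
        (⟨goodG2.torus z, goodG2.mem_diagonal.2 ⟨z, rfl⟩⟩ : chevG2.diagonalSubgroup (ZMod 3))) := by
      rintro ⟨t, ht⟩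
      obtain ⟨z, rfl⟩ := goodG2.mem_diagonal.1 ht
      exact ⟨z, rfl⟩
    refine (Nat.card_le_card_of_surjective _ hsur).trans ?_
    rw [Nat.card_pi]
    simp [Nat.card_eq_fintype_card, ZMod.card_units_eq_totient, Nat.totient_prime Nat.prime_three,
      show chevG2.rank = 2 from rfl]
  have hpos : 0 < Nat.card (chevG2.diagonalSubgroup (ZMod 3)) := Nat.card_pos
  constructor <;> intro h <;> rw [Cfsg.Agent.H69.Chev.card_borel goodG2, hU] at h
  · have := Nat.le_of_dvd hpos ((Nat.Coprime.dvd_mul_left (by norm_num)).1 h)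
    omega
  · have := Nat.le_of_dvd hpos ((Nat.Coprime.dvd_mul_left (by norm_num)).1 h)
    omega

/-- The Steinberg value at an element commuting with an element of order `7` or `13`. -/
theorem steinberg_seven_thirteen {r : ℕ} (hr : r = 7 ∨ r = 13) {x g : G₂₃} (hx : orderOf x = r)
    (hc : Commute x g) : ∃ m : ℤ, chevG2.steinbergCharacter (ZMod 3) g = 1 + (r : ℂ) * m := by
  rcases hr with rfl | rfl
  · exact steinberg_modEq goodG2 rfl (by norm_num) (by rw [ZMod.card]; norm_num)
      card_borel_three.1 hx hc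
  · exact steinberg_modEq goodG2 rfl (by norm_num) (by rw [ZMod.card]; norm_num)
      card_borel_three.2 hx hc

theorem exists_commuting_of_orderOf_mul {K : Type*} [Group K] [Finite K] {g : K} {a b : ℕ}
    (hg : orderOf g = a * b) (ha : 0 < a) (hb : 0 < b) :
    ∃ x y : K, Commute x y ∧ orderOf x = a ∧ orderOf y = b := by
  refine ⟨g ^ b, g ^ a, Commute.pow_pow_self g b a, ?_, ?_⟩
  · rw [orderOf_pow_of_dvd (by omega) (hg ▸ Dvd.intro_left a rfl), hg, Nat.mul_div_cancel _ hb]
  · rw [orderOf_pow_of_dvd (by omega) (hg ▸ Dvd.intro b rfl), hg, Nat.mul_div_cancel_left _ ha]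

theorem orderOf_ne_three_mul {r : ℕ} (hr : r = 7 ∨ r = 13) (g : G₂₃) : orderOf g ≠ 3 * r := by
  intro h
  obtain ⟨u, x, hc, hu, hx⟩ := exists_commuting_of_orderOf_mul h (by norm_num) (by omega)
  obtain ⟨m, hm⟩ := steinberg_seven_thirteen hr hx hc.symm
  rw [Cfsg.Agent.H69.Chev.steinberg_vanish goodG2 (p := 3) u (dvd_of_eq hu.symm)] at hm
  have : (0 : ℤ) = 1 + r * m := by exact_mod_cast hm
  rcases hr with rfl | rfl <;> omega

theorem orderOf_ne_two_mul {r : ℕ} (hr : r = 7 ∨ r = 13) (g : G₂₃) : orderOf g ≠ 2 * r := by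
  intro h
  obtain ⟨t, x, hc, ht, hx⟩ := exists_commuting_of_orderOf_mul h (by norm_num) (by omega)
  obtain ⟨a, ha⟩ := isConj_iff.1 (isConj_involution ht)
  have hx' : orderOf (a * x * a⁻¹) = r := (MulEquiv.orderOf_eq (MulAut.conj a) x).trans hx
  obtain ⟨m, hm⟩ := steinberg_seven_thirteen hr hx' (g := sG) (by
    rw [← ha]
    exact hc.symm.map (MulAut.conj a))
  rw [steinberg_torus_six sG rfl] at hm
  have : (9 : ℤ) = 1 + r * m := by exact_mod_cast hm
  rcases hr with rfl | rfl <;> omega

theorem orderOf_ne_ninety_one (g : G₂₃) : orderOf g ≠ 7 * 13 := by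
  intro hg
  classical
  haveI := isSimple_group_three
  have hcard := card_group_three
  haveI : Fact (Nat.Prime 7) := ⟨by norm_num⟩
  let x := g ^ 13
  have hx : orderOf x = 7 := by
    rw [orderOf_pow_of_dvd (by norm_num) (hg ▸ Dvd.intro_left 7 rfl), hg]
  let X := Subgroup.zpowers x
  have hX : Nat.card X = 7 := by rw [Nat.card_zpowers, hx]
  let P : Sylow 7 G₂₃ := Sylow.ofCard X (by
    rw [hX, hcard, show (4245696 : ℕ) = 7 ^ 1 * 606528 by norm_num,
      Nat.factorization_mul (by norm_num) (by norm_num), Finsupp.add_apply,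
      Nat.Prime.factorization_pow (by norm_num), Finsupp.single_eq_same,
      Nat.factorization_eq_zero_of_not_dvd (n := 606528) (by norm_num)]
    norm_num)
  set C := Subgroup.centralizer (X : Set G₂₃) with hC
  have hxC : ∀ c ∈ C, Commute c x := fun c hc =>
    (Subgroup.mem_centralizer_iff.1 hc x (Subgroup.mem_zpowers x)).symm
  have hgC : g ∈ C := Subgroup.mem_centralizer_iff.2 fun y hy => by
    obtain ⟨k, rfl⟩ := Subgroup.mem_zpowers_iff.1 hy
    exact ((Commute.self_pow g 13).zpow_right k).symm.eq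
  have h91 : 91 ∣ Nat.card C := by
    have := Subgroup.orderOf_dvd_natCard C hgC
    rwa [hg] at this
  have hnot : ∀ p : ℕ, p = 2 ∨ p = 3 → ¬ p ∣ Nat.card C := by
    intro p hp hdvd
    haveI : Fact p.Prime := ⟨by rcases hp with rfl | rfl <;> norm_num⟩
    obtain ⟨⟨c, hc⟩, hco⟩ := exists_prime_orderOf_dvd_card' p hdvd
    rw [Subgroup.orderOf_mk] at hco
    have hord : orderOf (c * x) = p * 7 := by
      rw [(hxC c hc).orderOf_mul_eq_mul_orderOf_of_coprime
        (by rw [hco, hx]; rcases hp with rfl | rfl <;> norm_num), hco, hx]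
    rcases hp with rfl | rfl
    · exact orderOf_ne_two_mul (Or.inl rfl) _ hord
    · exact orderOf_ne_three_mul (Or.inl rfl) _ hord
  have hC91 : Nat.card C = 91 := by
    have hd : Nat.card C ∣ 91 * 46656 := by
      have := Subgroup.card_subgroup_dvd_card C
      rwa [hcard] at this
    have hcop : Nat.Coprime (Nat.card C) 46656 := by
      rw [show (46656 : ℕ) = 2 ^ 6 * 3 ^ 6 by norm_num]
      exact Nat.Coprime.mul_right
        (((Nat.Prime.coprime_iff_not_dvd Nat.prime_two).2 (hnot 2 (Or.inl rfl))).symm.pow_right 6)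
        (((Nat.Prime.coprime_iff_not_dvd Nat.prime_three).2 (hnot 3 (Or.inr rfl))).symm.pow_right 6)
    exact Nat.dvd_antisymm (hcop.dvd_of_dvd_mul_right hd) h91
  set N := Subgroup.normalizer (X : Set G₂₃) with hN
  have hCN : C ≤ N := Subgroup.centralizer_le_normalizer _
  have hk6 : C.relIndex N ∣ 6 := by
    have hker : C.subgroupOf N = (Subgroup.normalizerMonoidHom X).ker :=
      (Subgroup.normalizerMonoidHom_ker X).symm
    have h2 : Nat.card (MulAut X) = 6 := by
      haveI : IsCyclic X := Subgroup.isCyclic_zpowers x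
      rw [IsCyclic.card_mulAut, hX]
      exact Nat.totient_prime (by norm_num)
    rw [Subgroup.relIndex, hker, Subgroup.index_ker, ← h2]
    exact Subgroup.card_subgroup_dvd_card _
  have hNcard : 91 * C.relIndex N = Nat.card N := by
    rw [← hC91, Subgroup.relIndex]
    have := Subgroup.card_mul_index (C.subgroupOf N)
    rwa [Nat.card_congr (Subgroup.subgroupOfEquivOfLe hCN).toEquiv] at this
  have hn : N.index ≡ 1 [MOD 7] := by
    have := card_sylow_modEq_one 7 G₂₃
    rwa [Sylow.card_eq_index_normalizer P] at this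
  have hmul : Nat.card N * N.index = 4245696 := by rw [N.card_mul_index, hcard]
  rw [← hNcard] at hmul
  have hk : C.relIndex N = 1 := by
    have : C.relIndex N ∈ Nat.divisors 6 := Nat.mem_divisors.2 ⟨hk6, by norm_num⟩
    rw [show Nat.divisors 6 = {1, 2, 3, 6} by decide] at this
    simp only [Finset.mem_insert, Finset.mem_singleton] at this
    unfold Nat.ModEq at hn
    rcases this with h | h | h | h <;> rw [h] at hmul <;> omega
  have hle : N ≤ C := Subgroup.relIndex_eq_one.1 hk
  have hcomp := MonoidHom.ker_transferSylow_isComplement' P hle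
  rcases (MonoidHom.normal_ker (MonoidHom.transferSylow P hle)).eq_bot_or_eq_top with h | h <;>
    rw [h] at hcomp
  · have := hcomp.card_mul_card
    rw [Subgroup.card_bot, one_mul, hcard] at this
    have hP : Nat.card (P : Subgroup G₂₃) = 7 := hX
    omega
  · have := hcomp.card_mul_card
    rw [Subgroup.card_top, hcard] at this
    have hP : Nat.card (P : Subgroup G₂₃) = 7 := hX
    rw [hP] at this
    norm_num at this

theorem exists_orderOf_six : ∃ g : G₂₃, orderOf g = 6 := by
  let u : G₂₃ := ⟨goodG2.xg 6 1, goodG2.xg_mem_group _ _⟩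
  have hT : goodG2.hg 6 (-1 : ZMod 3) = goodG2.torus zS :=
    goodG2.hg_eq_torus (F := ZMod 3) (r := 6) (by decide) (-1)
  have hc : Commute sG u := by
    refine Subtype.ext ?_
    show goodG2.hg 6 (-1 : ZMod 3) * goodG2.xg 6 1 = goodG2.xg 6 1 * goodG2.hg 6 (-1)
    have h := goodG2.torus_conj_xg zS (r := 6) (by decide) (1 : ZMod 3)
    rw [(torusVal_zS ⟨6, by decide⟩).2 (by decide), one_mul] at h
    rw [hT, ← mul_inv_eq_iff_eq_mul]
    exact h
  have hxne : goodG2.xg 6 (1 : ZMod 3) ≠ 1 := rep_x6_1.ne rep_one (by decide +kernel)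
  have hu : orderOf u = 3 := by
    refine orderOf_eq_prime (Subtype.ext ?_) (fun h => hxne (congrArg Subtype.val h))
    show goodG2.xg 6 (1 : ZMod 3) ^ 3 = 1
    rw [pow_succ, pow_succ, pow_one, goodG2.xg_add, goodG2.xg_add,
      show (1 : ZMod 3) + 1 + 1 = 0 by decide, goodG2.xg_zero]
  have hs : orderOf sG = 2 := by
    have h5 : (sG : GL chevG2.Idx (ZMod 3)) = el 5 := el_five.symm
    refine orderOf_eq_prime (Subtype.ext ?_) (fun h => ?_)
    · show (sG : GL chevG2.Idx (ZMod 3)) ^ 2 = 1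
      rw [h5, pow_two, el_mul, show mulIdx 5 5 = 0 by decide +kernel, el_zero]
    · have h' : el 5 = el 0 := by rw [← h5, el_zero, h]; rfl
      exact absurd (el_injective h') (by decide)
  exact ⟨sG * u, by rw [hc.orderOf_mul_eq_mul_orderOf_of_coprime (by rw [hs, hu]; norm_num), hs, hu]⟩

/-- The prime divisors of `|G₂(3)|`. -/
theorem prime_dvd_card {r : ℕ} (hr : r.Prime) :
    r ∣ Nat.card G₂₃ ↔ r = 2 ∨ r = 3 ∨ r = 7 ∨ r = 13 := by
  rw [card_group_three, show (4245696 : ℕ) = 2 ^ 6 * 3 ^ 6 * 7 * 13 by norm_num]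
  constructor
  · intro h
    rcases hr.dvd_mul.1 h with h | h
    · rcases hr.dvd_mul.1 h with h | h
      · rcases hr.dvd_mul.1 h with h | h
        · exact Or.inl ((Nat.prime_dvd_prime_iff_eq hr Nat.prime_two).1 (hr.dvd_of_dvd_pow h))
        · exact Or.inr (Or.inl ((Nat.prime_dvd_prime_iff_eq hr Nat.prime_three).1 (hr.dvd_of_dvd_pow h)))
      · exact Or.inr (Or.inr (Or.inl ((Nat.prime_dvd_prime_iff_eq hr (by norm_num)).1 h)))
    · exact Or.inr (Or.inr (Or.inr ((Nat.prime_dvd_prime_iff_eq hr (by norm_num)).1 h)))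
  · rintro (rfl | rfl | rfl | rfl) <;> norm_num

/-- The edges of the prime graph. -/
theorem exists_orderOf_mul {r s : ℕ} (hr : r.Prime) (hs : s.Prime) (hne : r ≠ s) :
    (∃ g : G₂₃, orderOf g = r * s) ↔ r * s = 6 := by
  constructor
  · rintro ⟨g, hg⟩
    have hd : r * s ∣ Nat.card G₂₃ := hg ▸ orderOf_dvd_natCard g
    rcases (prime_dvd_card hr).1 (dvd_of_mul_right_dvd hd) with rfl | rfl | rfl | rfl <;>
      rcases (prime_dvd_card hs).1 (dvd_of_mul_left_dvd hd) with rfl | rfl | rfl | rfl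
    all_goals first
      | rfl
      | exact absurd rfl hne
      | exact absurd hg (orderOf_ne_two_mul (Or.inl rfl) g)
      | exact absurd hg (orderOf_ne_two_mul (Or.inr rfl) g)
      | exact absurd hg (orderOf_ne_three_mul (Or.inl rfl) g)
      | exact absurd hg (orderOf_ne_three_mul (Or.inr rfl) g)
      | exact absurd hg (orderOf_ne_ninety_one g)
  · intro h
    rw [h]
    exact exists_orderOf_six

end Cfsg.Agent.H69.G2Three
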