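import Cfsg.Agent.H69.ChevUnipotent
import Cfsg.Agent.H47.FieldMap

/-!
# The Steinberg character and commuting elements in a rank two Chevalley group

If an element `x` of prime order `r` commutes with `g`, and `r` divides the order of no proper
parabolic subgroup, then `St g ≡ 1 (mod r)`.
-/

set_option autoImplicit false

namespace Cfsg.Agent.H69.G2Three

open Cfsg Cfsg.Lie Cfsg.Agent.H46
open scoped Matrix

/-- Isomorphic fields give isomorphic Chevalley groups. -/
def groupMapEquiv (D : ChevalleyDatum) {F K : Type*} [Field F] [Field K] (f : F ≃+* K) :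
    ↥(D.group F) ≃* ↥(D.group K) where
  toFun g := ⟨Units.map ((f : F →+* K).mapMatrix (m := D.Idx)).toMonoidHom g.1,
    H47.map_group_le D (f : F →+* K) ⟨g.1, g.2, rfl⟩⟩
  invFun g := ⟨Units.map ((f.symm : K →+* F).mapMatrix (m := D.Idx)).toMonoidHom g.1,
    H47.map_group_le D (f.symm : K →+* F) ⟨g.1, g.2, rfl⟩⟩
  left_inv g := Subtype.ext <| Units.ext <| Matrix.ext fun i j => f.symm_apply_apply _
  right_inv g := Subtype.ext <| Units.ext <| Matrix.ext fun i j => f.apply_symm_apply _
  map_mul' g h := Subtype.ext <| map_mul _ _ _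

/-- An element of prime order centralising `g` acts on the cosets fixed by `g` without fixed
points, unless its order divides that of the subgroup. -/
theorem dvd_card_fixedBy {H : Type*} [Group H] [Finite H] (P : Subgroup H) {x g : H} {r : ℕ}
    (hr : r.Prime) (hx : orderOf x = r) (hc : Commute x g) (hP : ¬ r ∣ Nat.card P) :
    r ∣ Nat.card (MulAction.fixedBy (H ⧸ P) g) := by
  classical
  haveI := Fact.mk hr
  by_contra hnd
  have hmem : ∀ (y : H), Commute y g → ∀ c ∈ MulAction.fixedBy (H ⧸ P) g,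
      y • c ∈ MulAction.fixedBy (H ⧸ P) g := by
    intro y hy c hc
    show g • y • c = y • c
    rw [smul_smul, ← hy.eq, ← smul_smul, show g • c = c from hc]
  let σ : Equiv.Perm (MulAction.fixedBy (H ⧸ P) g) :=
    { toFun := fun c => ⟨x • (c : H ⧸ P), hmem x hc c c.2⟩
      invFun := fun c => ⟨x⁻¹ • (c : H ⧸ P), hmem x⁻¹ hc.inv_left c c.2⟩
      left_inv := fun c => Subtype.ext (inv_smul_smul x _)
      right_inv := fun c => Subtype.ext (smul_inv_smul x _) }
  have hpow : ∀ k : ℕ, ∀ c, (((σ ^ k) c : MulAction.fixedBy (H ⧸ P) g) : H ⧸ P) =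
      x ^ k • (c : H ⧸ P) := by
    intro k
    induction k with
    | zero => intro c; simp
    | succ k ih =>
      intro c
      rw [pow_succ', Equiv.Perm.mul_apply, pow_succ', ← smul_smul, ← ih]
      rfl
  haveI : Fintype (MulAction.fixedBy (H ⧸ P) g) := Fintype.ofFinite _
  rw [Nat.card_eq_fintype_card] at hnd
  obtain ⟨c, hcx⟩ := Equiv.Perm.exists_fixed_point_of_prime (n := 1) hnd (σ := σ) (by
    ext c
    rw [hpow, pow_one, ← hx, pow_orderOf_eq_one, one_smul]
    rfl)
  have h : x • (c : H ⧸ P) = c := congrArg Subtype.val hcx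
  obtain ⟨a, ha⟩ := QuotientGroup.mk_surjective (c : H ⧸ P)
  rw [← ha, MulAction.Quotient.smul_mk, QuotientGroup.eq, smul_eq_mul] at h
  have h' : a⁻¹ * x⁻¹ * a ∈ P := by simpa [mul_assoc] using h
  apply hP
  have h2 := P.orderOf_dvd_natCard h'
  rwa [show a⁻¹ * x⁻¹ * a = MulAut.conj a⁻¹ x⁻¹ by simp, MulEquiv.orderOf_eq,
    orderOf_inv, hx] at h2

variable {F : Type*} [Field F] [Fintype F] {D : ChevalleyDatum} (G : Good D)

include G in
theorem parabolicIn_empty :
    D.parabolicIn F ∅ = (D.borelSubgroup F).subgroupOf (D.group F) := by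
  rw [ChevalleyDatum.parabolicIn, ChevalleyDatum.parabolicSubgroup]
  congr 1
  simp

include G in
omit [Fintype F] in
theorem parabolicIn_range : D.parabolicIn F (Finset.range D.rank) = ⊤ := by
  rw [ChevalleyDatum.parabolicIn, Subgroup.subgroupOf_eq_top, ← G.borel_sup_monomial,
    ChevalleyDatum.parabolicSubgroup, G.monomial_eq]
  refine sup_le le_sup_left (sup_le ?_ ((Subgroup.closure_le _).2 ?_))
  · exact le_sup_of_le_left (Cfsg.Agent.H68.ChevSt.diag_le_borel)
  · rintro g ⟨i, rfl⟩
    exact Subgroup.mem_sup_right (Subgroup.subset_closure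
      ⟨i, Finset.mem_range.2 i.2, i.2, G.coe_ng _ _⟩)

include G in
/-- A minimal parabolic subgroup has index at most `q + 1` over `B`. -/
theorem card_parabolicIn_singleton {i : ℕ} (hi : i < D.rank) :
    ∃ k, k ≤ Fintype.card F + 1 ∧
      Nat.card (D.parabolicIn F {i}) = Nat.card (D.borelSubgroup F) * k := by
  classical
  set B := D.borelSubgroup F
  set P := D.parabolicSubgroup F ({i} : Set ℕ)
  have hBP : B ≤ P := le_sup_left
  have hPle : P ≤ G.pairSubgroup (F := F) hi := by
    refine sup_le (fun b hb => Or.inl hb) ((Subgroup.closure_le _).2 ?_)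
    rintro g ⟨j, hj, -, hg⟩
    rw [Set.mem_singleton_iff] at hj
    subst hj
    rw [G.eq_ng hg]
    exact Or.inr (G.self_mem_bruhatCell _)
  have hn : G.ng (D.simple i) (1 : F) ∈ D.monomialSubgroup F := G.ng_mem_monomial (G.simple_lt hi)
  have hnP : G.ng (D.simple i) (1 : F) ∈ P :=
    Subgroup.mem_sup_right (Subgroup.subset_closure ⟨i, Set.mem_singleton i, hi, G.coe_ng _ _⟩)
  set S := G.invSet (G.ng (D.simple i) (1 : F))
  have hS : ∀ r, r ∈ S → r = D.simple i := by
    rintro r ⟨hr, hp, hneg⟩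
    by_contra hne
    rw [show i = ((⟨i, hi⟩ : Fin D.rank) : ℕ) from rfl, G.perm_ng_simple ⟨i, hi⟩,
      G.sPerm_apply] at hneg
    exact G.not_isNegRoot (G.isPosRoot_reflect hi hp hne) hneg
  let U := G.posSub (F := F) S
  have hU : Nat.card U ≤ Fintype.card F := by
    rw [G.card_posSub (G.posClosed_invSet hn), Nat.card_eq_fintype_card]
    refine (Nat.pow_le_pow_right Fintype.card_pos (Finset.card_le_one.2 fun a ha b hb => ?_)).trans
      (pow_one _).le
    simp only [Finset.mem_filter] at ha hb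
    rw [hS a ha.2.2, hS b hb.2.2]
  have hUP : ∀ u : U, (u : GL D.Idx F) ∈ P := fun u =>
    hBP (Subgroup.mem_sup_left (G.posSub_le_posUnipotent _ u.2))
  let f : Option U → (P ⧸ B.subgroupOf P) := fun o => o.elim (QuotientGroup.mk 1)
    (fun u => QuotientGroup.mk ⟨(u : GL D.Idx F) * G.ng (D.simple i) (1 : F),
      mul_mem (hUP u) hnP⟩)
  have hf : Function.Surjective f := by
    intro c
    obtain ⟨⟨g, hg⟩, rfl⟩ := QuotientGroup.mk_surjective c
    rcases hPle (inv_mem hg) with h | h
    · refine ⟨none, QuotientGroup.eq.2 ?_⟩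
      rw [Subgroup.mem_subgroupOf]
      simpa using inv_mem_iff.1 h
    · obtain ⟨b, hb, u, hu, e⟩ := G.bruhatCell_normal_form hn h
      refine ⟨some ⟨u⁻¹, inv_mem hu⟩, QuotientGroup.eq.2 ?_⟩
      rw [Subgroup.mem_subgroupOf]
      push_cast
      have e' : g = u⁻¹ * (G.ng (D.simple i) (1 : F))⁻¹ * b⁻¹ := by
        rw [← inv_inv g, e]; group
      rw [e']
      set n := G.ng (D.simple i) (1 : F)
      rw [show (u⁻¹ * n)⁻¹ * (u⁻¹ * n⁻¹ * b⁻¹) = (n * n)⁻¹ * b⁻¹ by group]
      exact mul_mem (inv_mem (Subgroup.mem_sup_right (G.ng_simple_sq_mem hi))) (inv_mem hb)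
  refine ⟨Nat.card (P ⧸ B.subgroupOf P), (Nat.card_le_card_of_surjective f hf).trans ?_, ?_⟩
  · rw [Nat.card_eq_fintype_card, Fintype.card_option]
    rw [Nat.card_eq_fintype_card] at hU
    omega
  · rw [ChevalleyDatum.parabolicIn, Finset.coe_singleton,
      Nat.card_congr (Subgroup.subgroupOfEquivOfLe (show P ≤ D.group F from sup_le
        G.borel_le_group ((Subgroup.closure_le _).2 fun g ⟨j, _, _, hg⟩ => by
          rw [G.eq_ng hg]; exact G.ng_mem_group _ _))).toEquiv,
      Subgroup.card_eq_card_quotient_mul_card_subgroup (B.subgroupOf P),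
      Nat.card_congr (Subgroup.subgroupOfEquivOfLe hBP).toEquiv, mul_comm]

/-- The value of the Steinberg character in rank two. -/
theorem steinberg_rank_two (h2 : D.rank = 2) (g : ↥(D.group F)) :
    D.steinbergCharacter F g = Cfsg.fixedPointCharacter (D.parabolicIn F ∅) g -
      Cfsg.fixedPointCharacter (D.parabolicIn F {0}) g -
      Cfsg.fixedPointCharacter (D.parabolicIn F {1}) g +
      Cfsg.fixedPointCharacter (D.parabolicIn F {0, 1}) g := by
  have hpow : (Finset.range D.rank).powerset = {∅, {0}, {1}, {0, 1}} :=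
    (congrArg (fun n => (Finset.range n).powerset) h2).trans (by decide)
  rw [ChevalleyDatum.steinbergCharacter, hpow,
    Finset.sum_insert (by decide), Finset.sum_insert (by decide), Finset.sum_insert (by decide),
    Finset.sum_singleton]
  simp
  ring

include G in
/-- The congruence for `St`. -/
theorem steinberg_modEq (h2 : D.rank = 2) {r : ℕ} (hr : r.Prime) (hrq : Fintype.card F + 1 < r)
    (hB : ¬ r ∣ Nat.card (D.borelSubgroup F)) {x g : ↥(D.group F)} (hx : orderOf x = r)
    (hc : Commute x g) :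
    ∃ m : ℤ, D.steinbergCharacter F g = 1 + (r : ℂ) * m := by
  have hBc : Nat.card (D.parabolicIn F ∅) = Nat.card (D.borelSubgroup F) := by
    rw [parabolicIn_empty G]
    exact Nat.card_congr (Subgroup.subgroupOfEquivOfLe G.borel_le_group).toEquiv
  have hP : ∀ i < D.rank, ¬ r ∣ Nat.card (D.parabolicIn F {i}) := by
    intro i hi hdvd
    obtain ⟨k, hk, hcard⟩ := card_parabolicIn_singleton (F := F) G hi
    have hk0 : k ≠ 0 := by
      rintro rfl
      rw [mul_zero] at hcard
      exact Nat.card_pos.ne' hcard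
    rw [hcard] at hdvd
    rcases hr.dvd_mul.1 hdvd with h | h
    · exact hB h
    · have := Nat.le_of_dvd (by omega) h
      omega
  obtain ⟨a, ha⟩ := dvd_card_fixedBy (D.parabolicIn F ∅) hr hx hc (hBc ▸ hB)
  obtain ⟨b, hb⟩ := dvd_card_fixedBy (D.parabolicIn F {0}) hr hx hc (hP 0 (by omega))
  obtain ⟨c, hc'⟩ := dvd_card_fixedBy (D.parabolicIn F {1}) hr hx hc (hP 1 (by omega))
  have htop : Cfsg.fixedPointCharacter (D.parabolicIn F {0, 1}) g = 1 := by
    have hR : ({0, 1} : Finset ℕ) = Finset.range D.rank :=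
      (show ({0, 1} : Finset ℕ) = Finset.range 2 by decide).trans (congrArg Finset.range h2.symm)
    rw [hR, parabolicIn_range G,
      Cfsg.fixedPointCharacter, MulAction.fixedBy]
    norm_cast
    haveI : Subsingleton (↥(D.group F) ⧸ (⊤ : Subgroup ↥(D.group F))) :=
      QuotientGroup.subsingleton_quotient_top
    exact Nat.card_eq_one_iff_unique.2 ⟨inferInstance, ⟨⟨QuotientGroup.mk 1, Subsingleton.elim _ _⟩⟩⟩
  refine ⟨(a : ℤ) - b - c, ?_⟩
  rw [steinberg_rank_two h2, htop, Cfsg.fixedPointCharacter, Cfsg.fixedPointCharacter,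
    Cfsg.fixedPointCharacter, ha, hb, hc']
  push_cast
  ring

end Cfsg.Agent.H69.G2Three
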