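import Cfsg.Agent.H69.G2Three.Steinberg

/-!
# The Steinberg character of `G₂(3)` at a torus involution
-/

set_option autoImplicit false

namespace Cfsg.Agent.H69.G2Three

open Cfsg Cfsg.Lie Cfsg.Agent.H46
open scoped Matrix

variable {F : Type*} [Field F] [Fintype F] {D : ChevalleyDatum} (G : Good D)

/-- If `B = U T` with `U` normal and meeting `T` trivially, the cosets of `T` fixed by `h ∈ T`
correspond to the elements of `U` commuting with `h`. -/
theorem card_fixedBy_eq_commute {K : Type*} [Group K] (U T : Subgroup K) (hU : U.Normal)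
    (hUT : ∀ x, x ∈ U → x ∈ T → x = 1) (hdec : ∀ b, ∃ u ∈ U, ∃ t ∈ T, b = u * t)
    {h : K} (hh : h ∈ T) :
    Nat.card (MulAction.fixedBy (K ⧸ T) h) = Nat.card {u : U // h * u = u * h} := by
  refine (Nat.card_eq_of_bijective (fun u : {u : U // h * u = u * h} =>
    (⟨QuotientGroup.mk (u.1 : K), ?_⟩ : MulAction.fixedBy (K ⧸ T) h)) ⟨?_, ?_⟩).symm
  · show h • ((u.1 : K) : K ⧸ T) = (u.1 : K)
    rw [MulAction.Quotient.smul_mk, smul_eq_mul, QuotientGroup.eq, u.2, _root_.mul_inv_rev,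
      inv_mul_cancel_right]
    exact inv_mem hh
  · rintro ⟨⟨u, hu⟩, _⟩ ⟨⟨v, hv⟩, _⟩ e
    have e' := QuotientGroup.eq.1 (congrArg Subtype.val e)
    exact Subtype.ext (Subtype.ext (inv_mul_eq_one.1 (hUT _ (mul_mem (inv_mem hu) hv) e')))
  · rintro ⟨c, hc⟩
    obtain ⟨b, rfl⟩ := QuotientGroup.mk_surjective c
    obtain ⟨u, hu, t, ht, rfl⟩ := hdec b
    have hc' : ((h * (u * t) : K) : K ⧸ T) = ((u * t : K) : K ⧸ T) := by
      rw [← smul_eq_mul, ← MulAction.Quotient.smul_mk]
      exact hc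
    rw [QuotientGroup.eq] at hc'
    have h3 : h⁻¹ * (u⁻¹ * h * u) ∈ T := by
      refine mul_mem (inv_mem hh) ?_
      have := inv_mem (mul_mem (mul_mem ht hc') (inv_mem ht))
      simpa [mul_assoc] using this
    have h4 : h⁻¹ * (u⁻¹ * h * u) ∈ U := by
      have := mul_mem (hU.conj_mem _ (inv_mem hu) h⁻¹) hu
      simpa [mul_assoc] using this
    have h5 := hUT _ h4 h3
    rw [inv_mul_eq_one] at h5
    refine ⟨⟨⟨u, hu⟩, ?_⟩, Subtype.ext (QuotientGroup.eq.2 ?_)⟩
    · show h * u = u * h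
      conv_rhs => rw [h5]
      group
    · show u⁻¹ * (u * t) ∈ T
      rwa [inv_mul_cancel_left]

include G in
/-- At a torus element the Steinberg character counts the unipotent elements it centralises. -/
theorem steinberg_torus {h : ↥(D.group F)} (hh : (h : GL D.Idx F) ∈ D.diagonalSubgroup F) :
    D.steinbergCharacter F h =
      (Nat.card {u : D.posUnipotent F // (h : GL D.Idx F) * u = u * h} : ℂ) := by
  classical
  haveI : Fintype ↥(D.group F) := Fintype.ofFinite _
  obtain ⟨n₀, hn₀, hopp⟩ := G.exists_opposition (F := F)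
  let hb : ↥((D.borelSubgroup F).subgroupOf (D.group F)) := ⟨h, Subgroup.mem_sup_right hh⟩
  have hst : D.steinbergCharacter F h = Cfsg.fixedPointCharacter
      (((D.diagonalSubgroup F).subgroupOf (D.group F)).subgroupOf
        ((D.borelSubgroup F).subgroupOf (D.group F))) hb :=
    Cfsg.Agent.H68.ChevSt.steinberg_eq_fixed G (G.bnPair (F := F)) rfl rfl rfl G.borel_inf_neg
      n₀ hn₀ (G.monomial_le_group hn₀) (G.map_conj_opposition hn₀ hopp) hb
  rw [hst, Cfsg.fixedPointCharacter]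
  congr 1
  rw [card_fixedBy_eq_commute
    (((D.posUnipotent F).subgroupOf (D.group F)).subgroupOf
      ((D.borelSubgroup F).subgroupOf (D.group F))) _ ?_ ?_ ?_ ?_]
  · refine Nat.card_congr (Equiv.ofBijective (fun u => (⟨⟨(u.1.1.1 : GL D.Idx F), u.1.2⟩,
      congrArg (fun x => ((x : ↥(D.group F)) : GL D.Idx F)) (congrArg Subtype.val u.2)⟩ :
        {u : D.posUnipotent F // (h : GL D.Idx F) * u = u * h})) ⟨?_, ?_⟩)
    · rintro ⟨⟨⟨⟨u, _⟩, _⟩, _⟩, _⟩ ⟨⟨⟨⟨v, _⟩, _⟩, _⟩, _⟩ e
      have e' : u = v := congrArg (fun x => (x.1 : GL D.Idx F)) e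
      subst e'
      rfl
    · rintro ⟨⟨u, hu⟩, hc⟩
      exact ⟨⟨⟨⟨⟨u, G.posUnipotent_le_group hu⟩, Subgroup.mem_sup_left hu⟩, hu⟩,
        Subtype.ext (Subtype.ext hc)⟩, rfl⟩
  · refine ⟨fun x hx b => ?_⟩
    exact G.conj_posUnipotent b.2 hx
  · intro x hx hx'
    exact Subtype.ext (Subtype.ext ((Subgroup.eq_bot_iff_forall _).1
      (G.posUnipotent_inf_diagonal (F := F)) _ (Subgroup.mem_inf.2 ⟨hx, hx'⟩)))
  · rintro ⟨⟨b, hbg⟩, hbB⟩
    obtain ⟨u, hu, t, ht, rfl⟩ := G.mem_borel.1 hbB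
    exact ⟨⟨⟨u, G.posUnipotent_le_group hu⟩, Subgroup.mem_sup_left hu⟩, hu,
      ⟨⟨t, G.diagonal_le_group ht⟩, Subgroup.mem_sup_right ht⟩, ht, rfl⟩
  · exact hh

include G in
omit [Fintype F] in
/-- Torus elements act diagonally on the ordered products. -/
theorem torus_conj_ordProd (z : Fin D.rank → Fˣ) : ∀ n k, D.nroots - k = n → ∀ t : ℕ → F,
    G.torus z * G.ordProd k t * (G.torus z)⁻¹ =
      G.ordProd k (fun r => (G.torusVal z r : F) * t r) := by
  intro n
  induction n with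
  | zero =>
    intro k hk t
    rw [G.ordProd_of_le (by omega), G.ordProd_of_le (by omega)]
    simp
  | succ n ih =>
    intro k hk t
    rw [G.ordProd_succ (k := k) (by omega), G.ordProd_succ (k := k) (by omega),
      ← ih (k + 1) (by omega) t,
      ← G.torus_conj_xg z (by omega)]
    group

section Three

set_option maxRecDepth 20000

local instance : Fact (Nat.Prime 3) := ⟨by norm_num⟩

/-- The torus involution `h_b(-1)`. -/
def zS : Fin chevG2.rank → (ZMod 3)ˣ := fun k => (-1 : (ZMod 3)ˣ) ^ goodG2.tab.cor 6 k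

theorem torusVal_zS : ∀ r : Fin chevG2.nroots,
    (goodG2.torusVal zS r : ZMod 3) = 1 ↔ r.val ∈ ({2, 5, 6, 9} : Finset ℕ) := by
  decide +kernel

theorem steinberg_torus_six (h : ↥(chevG2.group (ZMod 3)))
    (hh : (h : GL chevG2.Idx (ZMod 3)) = goodG2.hg 6 (-1)) :
    chevG2.steinbergCharacter (ZMod 3) h = 9 := by
  classical
  have hT : goodG2.hg 6 (-1 : ZMod 3) = goodG2.torus zS :=
    goodG2.hg_eq_torus (F := ZMod 3) (r := 6) (by decide) (-1)
  rw [hT] at hh
  rw [steinberg_torus goodG2 (h := h) (by rw [hh]; exact goodG2.mem_diagonal.2 ⟨_, rfl⟩)]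
  let tt : ZMod 3 × ZMod 3 → ℕ → ZMod 3 := fun a r => if r = 6 then a.1 else if r = 9 then a.2 else 0
  let φ : ZMod 3 × ZMod 3 →
      {u : chevG2.posUnipotent (ZMod 3) // (h : GL chevG2.Idx (ZMod 3)) * u = u * h} := fun a =>
    ⟨⟨goodG2.ordProd (chevG2.nroots / 2) (tt a), by
      rw [goodG2.posUnipotent_eq]
      exact goodG2.ordProd_half_mem fun r _ hr => absurd (Set.mem_univ r) hr⟩, by
      show (h : GL chevG2.Idx (ZMod 3)) * goodG2.ordProd _ (tt a) = goodG2.ordProd _ (tt a) * h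
      rw [hh, ← mul_inv_eq_iff_eq_mul, torus_conj_ordProd goodG2 zS _ _ rfl]
      refine goodG2.ordProd_congr fun r _ hr => ?_
      by_cases h6 : r = 6 ∨ r = 9
      · rw [(torusVal_zS ⟨r, hr⟩).2 (by rcases h6 with e | e <;> simp [e]), one_mul]
      · push Not at h6
        simp [tt, h6.1, h6.2]⟩
  rw [← Nat.card_eq_of_bijective φ ⟨?_, ?_⟩]
  · simp
  · intro a b e
    have e' : goodG2.ordProd (chevG2.nroots / 2) (tt a) = goodG2.ordProd (chevG2.nroots / 2) (tt b) := by
      have e2 := congrArg Subtype.val (congrArg Subtype.val e)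
      dsimp only [φ] at e2
      exact e2
    have h6 := goodG2.ordProd_injective _ le_rfl _ _ e' 6 (by decide) (by decide)
    have h9 := goodG2.ordProd_injective _ le_rfl _ _ e' 9 (by decide) (by decide)
    simp [tt] at h6 h9
    exact Prod.ext h6 h9
  · rintro ⟨⟨u, hu⟩, hcomm⟩
    have hu' : u ∈ goodG2.posSub (F := ZMod 3) Set.univ := by rwa [← goodG2.posUnipotent_eq]
    obtain ⟨t, ⟨-, rfl⟩, -⟩ := goodG2.posSub_normal_form goodG2.posClosed_univ hu'
    refine ⟨(t 6, t 9), Subtype.ext (Subtype.ext ?_)⟩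
    show goodG2.ordProd _ (tt (t 6, t 9)) = goodG2.ordProd _ t
    have hc : (h : GL chevG2.Idx (ZMod 3)) * goodG2.ordProd (chevG2.nroots / 2) t =
        goodG2.ordProd (chevG2.nroots / 2) t * h := hcomm
    rw [hh, ← mul_inv_eq_iff_eq_mul, torus_conj_ordProd goodG2 zS _ _ rfl] at hc
    refine goodG2.ordProd_congr fun r hr1 hr2 => ?_
    by_cases h6 : r = 6 ∨ r = 9
    · rcases h6 with rfl | rfl <;> simp [tt]
    · have := goodG2.ordProd_injective _ le_rfl _ _ hc r (by omega) (by omega)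
      have hne : (goodG2.torusVal zS r : ZMod 3) ≠ 1 := fun e => h6 (by
        have h' := (torusVal_zS ⟨r, hr2⟩).1 e
        have : 6 ≤ r := hr1
        simp at h'
        omega)
      have h0 : ((goodG2.torusVal zS r : ZMod 3) - 1) * t r = 0 := by linear_combination this
      rcases mul_eq_zero.1 h0 with e | e
      · exact absurd (sub_eq_zero.1 e) hne
      · push Not at h6
        simp [tt, h6.1, h6.2, e]

end Three

end Cfsg.Agent.H69.G2Three
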